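import Mathlib.GroupTheory.Nilpotent
import Cfsg.Agent.S0001

/-!
# `p'`-subgroups of a group with a normal Sylow `p`-subgroup (helper299, S4821 LOC)
-/

set_option autoImplicit false

namespace Cfsg.Agent.H299.TI

open Subgroup

variable {p : ℕ} [hp : Fact p.Prime]

theorem coprime_of {W : Type*} [Group W] [Finite W] {P K : Subgroup W}
    (hP : IsPGroup p P) (hK : ¬ p ∣ Nat.card K) : (Nat.card P).Coprime (Nat.card K) := by
  obtain ⟨n, hn⟩ := hP.exists_card_eq
  rw [hn]
  exact Nat.Coprime.pow_left n ((Nat.Prime.coprime_iff_not_dvd hp.out).2 hK)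

theorem isCompl_of {W : Type*} [Group W] [Finite W] {P K : Subgroup W} [P.Normal]
    (hP : IsPGroup p P) (hK : ¬ p ∣ Nat.card K) (hPK : P ⊔ K = ⊤) : IsComplement' P K := by
  refine isComplement'_of_disjoint_and_mul_eq_univ ?_ ?_
  · rw [disjoint_iff]
    exact (disjoint_of_coprime_natCard (coprime_of hP hK)).eq_bot
  · rw [← normal_mul, hPK, coe_top]

omit hp in
theorem not_dvd_subgroupOf {W : Type*} [Group W] [Finite W] {K : Subgroup W} (M : Subgroup W)
    (hK : ¬ p ∣ Nat.card K) : ¬ p ∣ Nat.card (K.subgroupOf M) := fun h =>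
  hK (h.trans (Subgroup.card_comap_dvd_of_injective K M.subtype M.subtype_injective))

/-- Every `p'`-subgroup is conjugate into a given complement of the normal Sylow `p`-subgroup. -/
theorem exists_conj_le {W : Type*} [Group W] [Finite W] {P K A : Subgroup W} [hn : P.Normal]
    (hP : IsPGroup p P) (hK : ¬ p ∣ Nat.card K) (hPK : P ⊔ K = ⊤) (hA : ¬ p ∣ Nat.card A) :
    ∃ y : W, ∀ a ∈ A, y * a * y⁻¹ ∈ K := by
  set M : Subgroup W := P ⊔ A with hM
  have hPM : P ≤ M := le_sup_left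
  have hAM : A ≤ M := le_sup_right
  have : (P.subgroupOf M).Normal := hn.subgroupOf M
  have hP' : IsPGroup p (P.subgroupOf M) := hP.comap_subtype
  have h1 : IsComplement' (P.subgroupOf M) (A.subgroupOf M) := by
    refine isCompl_of hP' (not_dvd_subgroupOf M hA) ?_
    rw [← subgroupOf_sup hPM hAM, subgroupOf_self]
  have h2 : IsComplement' (P.subgroupOf M) (K.subgroupOf M) := by
    refine isCompl_of hP' (not_dvd_subgroupOf M hK) ?_
    rw [eq_top_iff]
    rintro ⟨m, hm⟩ -
    have h3 : m ∈ P ⊔ K := by rw [hPK]; exact mem_top m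
    obtain ⟨x, hx, k, hk, rfl⟩ := mem_sup_of_normal_left.1 h3
    have hkM : k ∈ M := by
      have := M.mul_mem (M.inv_mem (hPM hx)) hm
      rwa [inv_mul_cancel_left] at this
    have h4 : (⟨x * k, hm⟩ : ↥M) = ⟨x, hPM hx⟩ * ⟨k, hkM⟩ := rfl
    rw [h4]
    exact mul_mem (mem_sup_left (mem_subgroupOf.2 hx)) (mem_sup_right (mem_subgroupOf.2 hk))
  obtain ⟨g, hg⟩ := Cfsg.Agent.S0001.result (P.subgroupOf M)
    (by rw [h2.symm.index_eq_card]; exact coprime_of hP' (not_dvd_subgroupOf M hK))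
    (Or.inl (by
      have : Group.IsNilpotent ↥(P.subgroupOf M) := hP'.isNilpotent
      infer_instance)) _ _ h1 h2
  refine ⟨g, fun a ha => ?_⟩
  have h5 : g * ⟨a, hAM ha⟩ * g⁻¹ ∈ K.subgroupOf M := by
    rw [← hg]
    exact smul_mem_pointwise_smul (⟨a, hAM ha⟩ : ↥M) (MulAut.conj g) (A.subgroupOf M)
      (mem_subgroupOf.2 ha)
  exact mem_subgroupOf.1 h5

end Cfsg.Agent.H299.TI
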